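import Cfsg.Agent.Lib.FocalW.Loop
import Cfsg.Agent.Lib.Fusion.FactorSat
import Cfsg.Agent.Lib.Fusion.FactorMore
import Cfsg.Agent.Lib.Fusion.LiftUse
import Mathlib

/-! # Systems with a nontrivial normal subgroup: reduction to the factor system and to the centralizer of the core -/

set_option autoImplicit false

namespace Cfsg.Agent.Lib.FocalW

open Cfsg Cfsg.FusionSystem Cfsg.Agent.Lib.Fusion Cfsg.Agent.Lib.Fusion.Biset

universe u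

section

variable {Ω : Type*} [Group Ω] {S : Subgroup Ω} [Finite S] {F : FusionSystem S}

/-- A map from `R` sending `U ≤ R` into `U` sends it onto `U`. -/
theorem map_subgroupOf_eq {R U : Subgroup Ω} {ψ : R →* Ω} (hψ : ψ ∈ F.Hom R) (hUR : U ≤ R)
    (h : ∀ (u : Ω) (hu : u ∈ U), ψ ⟨u, hUR hu⟩ ∈ U) : (U.subgroupOf R).map ψ = U := by
  have hUS : U ≤ S := hUR.trans (hom_le F hψ)
  apply eq_of_le_of_card_le hUS
  · rintro _ ⟨x, hx, rfl⟩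
    exact h _ (Subgroup.mem_subgroupOf.1 hx)
  · rw [Subgroup.card_map_of_injective (hom_inj F hψ)]
    exact (Nat.card_congr (Subgroup.subgroupOfEquivOfLe hUR).toEquiv).symm.le

variable {p : ℕ} [Fact p.Prime]

/-- Maps of a system with a normal subgroup `Q` are stable on `Q` as soon as the normalizer system of `Q C_S(Q)`
has focal subgroup in `Tf`. -/
theorem stable_of_sup_centralizer (hF : F.IsSaturated p) {Q : Subgroup Ω} (hQn : F.IsNormal Q)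
    {D₂ : FusionSystem (normalizerIn S (Q ⊔ centralizerIn S Q))} (hD₂ : F.IsNormalizerSystem (Q ⊔ centralizerIn S Q) D₂)
    {Tf : Subgroup Ω} (hfoc : D₂.focalSubgroup ≤ Tf) (P : Subgroup Ω) (φ : P →* Ω) (hφ : φ ∈ F.Hom P) (x : P)
    (hxQ : (x : Ω) ∈ Q) : (x : Ω)⁻¹ * φ x ∈ Tf := by
  have hQS : Q ≤ S := hQn.1
  have hNQ : S ≤ Subgroup.normalizer (Q : Set Ω) := StronglyClosed.le_normalizer (IsNormal.stronglyClosed hQn)
  obtain ⟨ψ, hψ, hv, hm⟩ := hQn.2 P φ hφ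
  let α₀ : Q →* Ω := ψ.comp (Subgroup.inclusion le_sup_right)
  have hα₀ : α₀ ∈ F.Hom Q := res_mem F hψ le_sup_right
  have hrange : α₀.range = Q := by
    ext y
    constructor
    · rintro ⟨z, rfl⟩
      exact hm.le ⟨Subgroup.inclusion le_sup_right z, Subgroup.mem_subgroupOf.2 z.2, rfl⟩
    · intro hy
      obtain ⟨z, hz, rfl⟩ := hm.ge hy
      exact ⟨⟨z, Subgroup.mem_subgroupOf.1 hz⟩, rfl⟩
  obtain ⟨-, hrec⟩ := IsNormal.fullyAutomized_receptive hF hQn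
  obtain ⟨χ, hχ, hχv⟩ := hrec.2 Q α₀ hα₀ hrange
  obtain ⟨Q₂, hQ₂⟩ : ∃ Q₂, Q₂ = Q ⊔ centralizerIn S Q := ⟨_, rfl⟩
  have hQQ₂ : Q ≤ Q₂ := hQ₂ ▸ le_sup_left
  have hCQ₂ : centralizerIn S Q ≤ Q₂ := hQ₂ ▸ le_sup_right
  have hQ₂S : Q₂ ≤ S := hQ₂ ▸ sup_le hQS (centralizerIn_le _)
  have hle : Q₂ ≤ extender S Q α₀ := hQ₂ ▸ sup_le (le_extender hα₀) centralizerIn_le_extender
  let χ₂ : Q₂ →* Ω := χ.comp (Subgroup.inclusion hle)
  have hχ₂ : χ₂ ∈ F.Hom Q₂ := res_mem F hχ hle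
  have hχ₂Q : ∀ (y : Ω) (hy : y ∈ Q), χ₂ ⟨y, hQQ₂ hy⟩ = α₀ ⟨y, hy⟩ := fun y hy => hχv y hy (hle (hQQ₂ hy))
  have hα₀Q : ∀ y : Q, α₀ y ∈ Q := fun y => hrange.le ⟨y, rfl⟩
  have hvalC : ∀ (c : Ω) (hc : c ∈ centralizerIn S Q), χ₂ ⟨c, hCQ₂ hc⟩ ∈ centralizerIn S Q := by
    intro c hc
    refine mem_centralizerIn.2 ⟨hom_val F hχ₂ _, fun y hy => ?_⟩
    obtain ⟨y', rfl⟩ := hrange.ge hy
    have h1 := hχ₂Q y' y'.2
    have hcomm : (⟨c, hCQ₂ hc⟩ : Q₂) * ⟨y', hQQ₂ y'.2⟩ = ⟨y', hQQ₂ y'.2⟩ * ⟨c, hCQ₂ hc⟩ := by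
      apply Subtype.ext
      exact ((mem_centralizerIn.1 hc).2 y' y'.2).symm
    have h2 := congrArg χ₂ hcomm
    rw [map_mul, map_mul] at h2
    have h3 : χ₂ ⟨y', hQQ₂ y'.2⟩ = α₀ y' := h1
    rw [h3] at h2
    exact h2.symm
  have hval : ∀ y : Q₂, χ₂ y ∈ Q₂ := by
    rintro ⟨y, hy⟩
    have hy' : y ∈ Q ⊔ centralizerIn S Q := hQ₂ ▸ hy
    obtain ⟨a, ha, b, hb, e⟩ := exists_mul_of_mem_sup ((centralizerIn_le Q).trans hNQ) hy'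
    have e' : (⟨y, hy⟩ : Q₂) = ⟨a, hQQ₂ ha⟩ * ⟨b, hCQ₂ hb⟩ := Subtype.ext e
    rw [e', map_mul]
    refine Q₂.mul_mem (hQQ₂ ?_) (hCQ₂ (hvalC b hb))
    rw [hχ₂Q a ha]
    exact hα₀Q _
  have hNS : Q₂ ≤ normalizerIn S Q₂ := le_normalizerIn hQ₂S
  have hmem : χ₂ ∈ F.normalizerHom Q₂ Q₂ := by
    have hsup : Q₂ ⊔ Q₂ ≤ Q₂ := sup_le le_rfl le_rfl
    refine ⟨hχ₂, hNS, fun y => hNS (hval y), χ₂.comp (Subgroup.inclusion hsup), res_mem F hχ₂ hsup, fun y => rfl, ?_⟩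
    exact map_subgroupOf_eq (res_mem F hχ₂ hsup) le_sup_left fun u hu => hval ⟨u, hu⟩
  subst hQ₂
  have hD : χ₂ ∈ D₂.Hom _ := by
    rw [hD₂ _]
    exact hmem
  have h1 := hfoc (mem_focal hD ⟨x, hQQ₂ hxQ⟩)
  have h2 : χ₂ ⟨x, hQQ₂ hxQ⟩ = φ x := by
    rw [hχ₂Q x hxQ]
    exact hv x
  rw [h2] at h1
  exact h1

end

section Factor

variable {Ω Ω' : Type*} [Group Ω] [Group Ω'] {S : Subgroup Ω} [Finite S] {S' : Subgroup Ω'} {F : FusionSystem S}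
  {Q : Subgroup Ω} {θ : S →* Ω'} {E : FusionSystem S'} {p : ℕ} [Fact p.Prime]

/-- The image of a focal element is focal. -/
theorem focal_map_factor (hS : IsPGroup p S) (hF : F.IsSaturated p) (hQs : F.StronglyClosed Q)
    (hE : F.IsFactorSystem Q θ E) : F.focalSubgroup ≤ preimageAlong θ E.focalSubgroup := by
  refine focal_le_of_forall fun P φ hφ x => ?_
  obtain ⟨φ', hφ', hP, hφS, hP', hv⟩ := (isSurjectiveMorphism_of_factor hS hF hQs hE).1.2 P φ hφ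
  refine mem_preimageAlong.2 ⟨S.mul_mem (S.inv_mem (hP x.2)) (hφS x), ?_⟩
  have h1 := mem_focal hφ' ⟨θ ⟨x, hP x.2⟩, hP' x⟩
  rw [hv x] at h1
  have e : θ ⟨(x : Ω)⁻¹ * φ x, S.mul_mem (S.inv_mem (hP x.2)) (hφS x)⟩ = (θ ⟨x, hP x.2⟩)⁻¹ * θ ⟨φ x, hφS x⟩ := by
    rw [← map_inv, ← map_mul]
    rfl
  rw [e]
  exact h1

/-- The focal subgroup of the normalizer of a subgroup of the factor system comes from the normalizer of its preimage. -/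
theorem focal_lift (hE : F.IsFactorSystem Q θ E) {V : Subgroup Ω'} {N' : FusionSystem (normalizerIn S' V)}
    (hN' : E.IsNormalizerSystem V N') {D : FusionSystem (normalizerIn S (preimageAlong θ V))}
    (hD : F.IsNormalizerSystem (preimageAlong θ V) D) (hNS : normalizerIn S (preimageAlong θ V) = S) :
    N'.focalSubgroup ≤ (D.focalSubgroup.subgroupOf S).map θ := by
  refine focal_le_of_forall fun P' β hβ x => ?_
  rw [hN' P'] at hβ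
  obtain ⟨-, hP'N, hvals, ψ', hψ', hext, hmap⟩ := hβ
  obtain ⟨hle, ψ, hψ, hI⟩ := (hE.2.2.2 _ ψ').1 hψ'
  have hP'S : P' ≤ S' := hP'N.trans (normalizerIn_le _)
  obtain ⟨R, hR⟩ : ∃ R, R = preimageAlong θ (P' ⊔ V) := ⟨_, rfl⟩
  obtain ⟨Q₁, hQ₁⟩ : ∃ Q₁, Q₁ = preimageAlong θ V := ⟨_, rfl⟩
  have hVsup : V ≤ P' ⊔ V := le_sup_right
  have hQ₁R : Q₁ ≤ preimageAlong θ (P' ⊔ V) := by
    intro u hu
    rw [hQ₁] at hu
    obtain ⟨h1, h2⟩ := mem_preimageAlong.1 hu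
    exact mem_preimageAlong.2 ⟨h1, hVsup h2⟩
  have hsup : preimageAlong θ (P' ⊔ V) ⊔ Q₁ ≤ preimageAlong θ (P' ⊔ V) := sup_le le_rfl hQ₁R
  have hψv : ∀ (s : S) (hs : (s : Ω) ∈ preimageAlong θ (P' ⊔ V)) (hs' : θ s ∈ P' ⊔ V),
      θ ⟨ψ ⟨s, hs⟩, hom_val F hψ _⟩ = ψ' ⟨θ s, hs'⟩ := by
    intro s hs hs'
    obtain ⟨hP, hφS, hP', hv⟩ := hI
    exact (hv ⟨s, hs⟩).symm
  have hmapV : ∀ (v : Ω') (hv : v ∈ V), ψ' ⟨v, hVsup hv⟩ ∈ V := by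
    intro v hv
    exact hmap.le ⟨⟨v, hVsup hv⟩, Subgroup.mem_subgroupOf.2 hv, rfl⟩
  have hψQ₁ : ∀ (u : Ω) (hu : u ∈ Q₁), ψ ⟨u, hQ₁R hu⟩ ∈ Q₁ := by
    intro u hu
    have hu' := hu
    rw [hQ₁] at hu' ⊢
    obtain ⟨h1, h2⟩ := mem_preimageAlong.1 hu'
    refine mem_preimageAlong.2 ⟨hom_val F hψ _, ?_⟩
    have h3 := hψv ⟨u, h1⟩ (hQ₁R hu) (hVsup h2)
    rw [h3]
    exact hmapV _ h2
  have hmem : ψ ∈ F.normalizerHom Q₁ (preimageAlong θ (P' ⊔ V)) := by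
    have hNS' : normalizerIn S Q₁ = S := hQ₁ ▸ hNS
    refine ⟨hψ, ?_, ?_, ψ.comp (Subgroup.inclusion hsup), res_mem F hψ hsup, fun y => rfl, ?_⟩
    · rw [hNS']
      exact preimageAlong_le _
    · intro y
      rw [hNS']
      exact hom_val F hψ y
    · exact map_subgroupOf_eq (res_mem F hψ hsup) le_sup_right fun u hu => hψQ₁ u hu
  have hψD : ψ ∈ D.Hom (preimageAlong θ (P' ⊔ V)) := by
    rw [hD _, ← hQ₁]
    exact hmem
  -- a lift of `x`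
  have hxS : (x : Ω') ∈ θ.range := by
    rw [hE.2.2.1]
    exact hP'S x.2
  obtain ⟨s, hs⟩ := hxS
  have hxsup : θ s ∈ P' ⊔ V := by
    rw [hs]
    exact (le_sup_left : P' ≤ P' ⊔ V) x.2
  have hsR : (s : Ω) ∈ preimageAlong θ (P' ⊔ V) := mem_preimageAlong.2 ⟨s.2, hxsup⟩
  have hgen := mem_focal hψD ⟨s, hsR⟩
  have hc : (s : Ω)⁻¹ * ψ ⟨s, hsR⟩ ∈ S := S.mul_mem (S.inv_mem s.2) (hom_val F hψ _)
  refine ⟨⟨_, hc⟩, Subgroup.mem_subgroupOf.2 hgen, ?_⟩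
  have e : θ ⟨(s : Ω)⁻¹ * ψ ⟨s, hsR⟩, hc⟩ = (θ s)⁻¹ * θ ⟨ψ ⟨s, hsR⟩, hom_val F hψ _⟩ := by
    rw [← map_inv, ← map_mul]
    rfl
  show θ ⟨(s : Ω)⁻¹ * ψ ⟨s, hsR⟩, hc⟩ = _
  have h1 : ψ' ⟨θ s, hxsup⟩ = β x := by
    have := hext x
    rw [← this]
    congr 1
    exact Subtype.ext hs
  rw [e, hψv s hsR hxsup, h1, hs]

/-- The main consequence: focal elements are products of focal elements of the normalizer of the preimage and
elements of the kernel. -/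
theorem exists_focal_mul (hS : IsPGroup p S) (hF : F.IsSaturated p) (hQs : F.StronglyClosed Q)
    (hE : F.IsFactorSystem Q θ E) {V : Subgroup Ω'} {N' : FusionSystem (normalizerIn S' V)}
    (hN' : E.IsNormalizerSystem V N') (hfoc : E.focalSubgroup ≤ N'.focalSubgroup)
    {D : FusionSystem (normalizerIn S (preimageAlong θ V))}
    (hD : F.IsNormalizerSystem (preimageAlong θ V) D) (hNS : normalizerIn S (preimageAlong θ V) = S)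
    {y : Ω} (hy : y ∈ F.focalSubgroup) : ∃ t ∈ D.focalSubgroup, t⁻¹ * y ∈ Q := by
  obtain ⟨hyS, hy'⟩ := mem_preimageAlong.1 (focal_map_factor hS hF hQs hE hy)
  obtain ⟨t, ht, he⟩ := focal_lift hE hN' hD hNS (hfoc hy')
  refine ⟨t, Subgroup.mem_subgroupOf.1 ht, ?_⟩
  have h1 : θ (t⁻¹ * ⟨y, hyS⟩) = 1 := by
    rw [map_mul, map_inv, he]
    simp
  exact (hE.2.1 _).1 h1

end Factor

end Cfsg.Agent.Lib.FocalW
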