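import Cfsg.Agent.Lib.FocalW.Core
import Mathlib

/-! # Control of transfer by a positive characteristic functor in saturated fusion systems -/

set_option autoImplicit false

namespace Cfsg.Agent.Lib.FocalW

open Cfsg Cfsg.FusionSystem Cfsg.Agent.Lib.Fusion Cfsg.Agent.Lib.Fusion.Biset

universe u

variable {p : ℕ} [Fact p.Prime] {W : ∀ (Q : Type u) [Group Q], Subgroup Q}

/-- For a subgroup normal in `S`, the theorem for its normalizer system gives the focal subgroup inside that of the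
normalizer system of `W(S)`. -/
theorem focal_normalizer_le {Ω : Type u} [Group Ω] {S : Subgroup Ω} {F : FusionSystem S}
    {N : FusionSystem (normalizerIn S (funW W S))} (hN : F.IsNormalizerSystem (funW W S) N) {Q' : Subgroup Ω}
    (hNS' : normalizerIn S Q' = S)
    (hIH : ∀ D : FusionSystem (normalizerIn S Q'), F.IsNormalizerSystem Q' D →
      ∀ Dn : FusionSystem (normalizerIn (normalizerIn S Q') (funW W (normalizerIn S Q'))),
        D.IsNormalizerSystem (funW W (normalizerIn S Q')) Dn → D.focalSubgroup ≤ Dn.focalSubgroup)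
    (D : FusionSystem (normalizerIn S Q')) (hD : F.IsNormalizerSystem Q' D) : D.focalSubgroup ≤ N.focalSubgroup := by
  obtain ⟨Dn, hDn⟩ := Cfsg.Agent.S5096.result D (funW W (normalizerIn S Q')) (funW_le W _)
  refine (hIH D hD Dn hDn).trans (focal_mono ?_)
  intro P β hβ
  rw [hDn P] at hβ
  have h1 := normalizerHom_mono (normalizerIn_le Q') (fun P ψ h => by rw [hD] at h; exact h.1) _ _ hβ
  rw [hNS'] at h1
  rw [hN P]
  exact h1


/-- The induction hypothesis on the normalizer systems of large subgroups. -/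
def LargeIH {Ω : Type u} [Group Ω] {S : Subgroup Ω} (F : FusionSystem S) (W : ∀ (Q : Type u) [Group Q], Subgroup Q) (c : ℕ) : Prop :=
  ∀ {U₀ : Subgroup Ω}, F.IsFullyNormalized U₀ → c < Nat.card U₀ →
    ∀ D : FusionSystem (normalizerIn S U₀), F.IsNormalizerSystem U₀ D →
    ∀ Dn : FusionSystem (normalizerIn (normalizerIn S U₀) (funW W (normalizerIn S U₀))),
      D.IsNormalizerSystem (funW W (normalizerIn S U₀)) Dn → D.focalSubgroup ≤ Dn.focalSubgroup

section

variable {Ω : Type u} [Group Ω] {S : Subgroup Ω} [Finite S] {F : FusionSystem S}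

theorem isFullyNormalized_of_normalizerIn {U : Subgroup Ω} (hUS : U ≤ S) (hNU : normalizerIn S U = S) :
    F.IsFullyNormalized U :=
  ⟨hUS, fun R _ => by
    rw [hNU]
    exact card_le_of_le le_rfl (normalizerIn_le R)⟩

/-- The subgroup `Q C_S(Q)` is normal in `S`. -/
theorem normalizerIn_sup_centralizer {Q : Subgroup Ω} (hQs : F.StronglyClosed Q) :
    normalizerIn S (Q ⊔ centralizerIn S Q) = S := by
  have hONS : S ≤ Subgroup.normalizer (Q : Set Ω) := StronglyClosed.le_normalizer hQs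
  have hQ₂S : Q ⊔ centralizerIn S Q ≤ S := sup_le hQs.1 (centralizerIn_le _)
  have : Finite ↥(Q ⊔ centralizerIn S Q) := finite_of_le hQ₂S
  refine le_antisymm (normalizerIn_le _) fun g hg => mem_normalizerIn.2 ⟨hg, mem_normalizer_of_forall fun x hx => ?_⟩
  obtain ⟨a, ha, b, hb, e⟩ := exists_mul_of_mem_sup ((centralizerIn_le _).trans hONS) hx
  rw [e]
  have e2 : g * (a * b) * g⁻¹ = (g * a * g⁻¹) * (g * b * g⁻¹) := by group
  rw [e2]
  refine Subgroup.mul_mem _ (Subgroup.mem_sup_left (StronglyClosed.conj_mem hQs hg ha)) (Subgroup.mem_sup_right ?_)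
  have hb' := mem_centralizerIn.1 hb
  refine mem_centralizerIn.2 ⟨S.mul_mem (S.mul_mem hg hb'.1) (S.inv_mem hg), fun y hy => ?_⟩
  have hy' : g⁻¹ * y * g⁻¹⁻¹ ∈ Q := StronglyClosed.conj_mem hQs (S.inv_mem hg) hy
  have h1 := hb'.2 _ hy'
  have h2 : y * (g * b * g⁻¹) = g * ((g⁻¹ * y * g⁻¹⁻¹) * b) * g⁻¹ := by group
  have h3 : (g * b * g⁻¹) * y = g * (b * (g⁻¹ * y * g⁻¹⁻¹)) * g⁻¹ := by group
  rw [h2, h3, h1]

/-- The part of the core in the focal subgroup is controlled. -/
theorem core_inf_focal_le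
    (hW2 : ∀ (Q R : Type u) [Group Q] [Group R] [Finite Q], IsPGroup p Q → ∀ φ : Q ≃* R, (W Q).map φ.toMonoidHom = W R)
    (hT : LocalTransfer p W) (hS : IsPGroup p S) (hF : F.IsSaturated p)
    {N : FusionSystem (normalizerIn S (funW W S))} (hN : F.IsNormalizerSystem (funW W S) N)
    {Q : Subgroup Ω} (hQn : F.IsNormal Q) (hIH : LargeIH F W (Nat.card Q)) : Q ⊓ F.focalSubgroup ≤ N.focalSubgroup := by
  have hQS : Q ≤ S := hQn.1
  have hQs := IsNormal.stronglyClosed hQn
  obtain ⟨-, hrec⟩ := IsNormal.fullyAutomized_receptive hF hQn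
  by_cases hC : centralizerIn S Q ≤ Q
  · exact inf_focal_le_of_centric hW2 hT hS hF hN hQn (isCentric_of_receptive hrec hC)
  · refine inf_focal_le hS hF (commutator_le_focal_normalizer hS hW2 N) Q ?_
    have hQ₂S : Q ⊔ centralizerIn S Q ≤ S := sup_le hQS (centralizerIn_le _)
    have hNQ₂ := normalizerIn_sup_centralizer hQs
    have hfn : F.IsFullyNormalized (Q ⊔ centralizerIn S Q) := isFullyNormalized_of_normalizerIn hQ₂S hNQ₂
    have hlt : Nat.card Q < Nat.card ↥(Q ⊔ centralizerIn S Q) := by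
      by_contra hle
      push Not at hle
      have heq := eq_of_le_of_card_le hQ₂S (le_sup_left : Q ≤ Q ⊔ centralizerIn S Q) hle
      exact hC ((le_sup_right : centralizerIn S Q ≤ Q ⊔ centralizerIn S Q).trans heq.ge)
    obtain ⟨D₂, hD₂⟩ := Cfsg.Agent.S5096.result F _ hQ₂S
    have hfoc := focal_normalizer_le hN hNQ₂ (fun D hD Dn hDn => hIH hfn hlt D hD Dn hDn) D₂ hD₂
    intro P φ hφ x hx
    exact stable_of_sup_centralizer hF hQn hD₂ hfoc P φ hφ x hx

/-- Modulo the core, focal elements are controlled. -/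
theorem exists_focal_mul_core
    (hW1 : ∀ (Q : Type u) [Group Q] [Finite Q], IsPGroup p Q → Nontrivial Q → W Q ≠ ⊥)
    (hW2 : ∀ (Q R : Type u) [Group Q] [Group R] [Finite Q], IsPGroup p Q → ∀ φ : Q ≃* R, (W Q).map φ.toMonoidHom = W R)
    (hS : IsPGroup p S) (hF : F.IsSaturated p)
    {N : FusionSystem (normalizerIn S (funW W S))} (hN : F.IsNormalizerSystem (funW W S) N)
    {Q : Subgroup Ω} (hQn : F.IsNormal Q) [hQq : (Q.subgroupOf S).Normal] (hIH : LargeIH F W (Nat.card Q))
    (hIHE : ∀ E : FusionSystem (⊤ : Subgroup (↥S ⧸ Q.subgroupOf S)),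
      F.IsFactorSystem Q (QuotientGroup.mk' (Q.subgroupOf S)) E →
      ∀ N' : FusionSystem (normalizerIn (⊤ : Subgroup (↥S ⧸ Q.subgroupOf S)) (funW W (⊤ : Subgroup (↥S ⧸ Q.subgroupOf S)))),
        E.IsNormalizerSystem (funW W (⊤ : Subgroup (↥S ⧸ Q.subgroupOf S))) N' → E.focalSubgroup ≤ N'.focalSubgroup)
    {y : Ω} (hy : y ∈ F.focalSubgroup) : ∃ t ∈ N.focalSubgroup, t⁻¹ * y ∈ Q := by
  have hQS : Q ≤ S := hQn.1
  have hQs := IsNormal.stronglyClosed hQn
  by_cases hQeq : Q = S
  · refine ⟨1, Subgroup.one_mem _, ?_⟩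
    rw [inv_one, one_mul, hQeq]
    exact focal_le hy
  let θ : S →* (↥S ⧸ Q.subgroupOf S) := QuotientGroup.mk' _
  have hker : ∀ s : S, θ s = 1 ↔ (s : Ω) ∈ Q := fun s => by
    show ((s : S) : ↥S ⧸ Q.subgroupOf S) = 1 ↔ _
    rw [QuotientGroup.eq_one_iff, Subgroup.mem_subgroupOf]
  have hθsurj : Function.Surjective θ := QuotientGroup.mk'_surjective _
  have hrange : θ.range = (⊤ : Subgroup (↥S ⧸ Q.subgroupOf S)) := MonoidHom.range_eq_top.2 hθsurj
  obtain ⟨E, hE⟩ := exists_factorSystem hQs hker hrange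
  have hEfin := IsFactorSystem.finite hE
  have hEp := IsFactorSystem.isPGroup hS hE
  obtain ⟨N', hN'⟩ := Cfsg.Agent.S5096.result E (funW W (⊤ : Subgroup (↥S ⧸ Q.subgroupOf S))) (funW_le W _)
  have hEfoc := hIHE E hE N' hN'
  -- the preimage of `W(S/Q)`
  have htopne : (⊤ : Subgroup (↥S ⧸ Q.subgroupOf S)) ≠ ⊥ := by
    intro htop
    apply hQeq
    refine le_antisymm hQS fun s hs => ?_
    have h1 : θ ⟨s, hs⟩ ∈ (⊥ : Subgroup (↥S ⧸ Q.subgroupOf S)) := by
      rw [← htop]
      trivial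
    exact (hker _).1 (Subgroup.mem_bot.1 h1)
  have hVne := funW_ne_bot hW1 hEp htopne
  have hVS : preimageAlong θ (funW W (⊤ : Subgroup (↥S ⧸ Q.subgroupOf S))) ≤ S := preimageAlong_le _
  have hQV : Q ≤ preimageAlong θ (funW W (⊤ : Subgroup (↥S ⧸ Q.subgroupOf S))) := le_preimageAlong hker hQS _
  have : Finite ↥(preimageAlong θ (funW W (⊤ : Subgroup (↥S ⧸ Q.subgroupOf S)))) := finite_of_le hVS
  have hNV : normalizerIn S (preimageAlong θ (funW W (⊤ : Subgroup (↥S ⧸ Q.subgroupOf S)))) = S := by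
    refine le_antisymm (normalizerIn_le _) fun g hg => mem_normalizerIn.2 ⟨hg, mem_normalizer_of_forall fun x hx => ?_⟩
    obtain ⟨hxS, hx'⟩ := mem_preimageAlong.1 hx
    refine mem_preimageAlong.2 ⟨S.mul_mem (S.mul_mem hg hxS) (S.inv_mem hg), ?_⟩
    have h1 : θ ⟨g * x * g⁻¹, S.mul_mem (S.mul_mem hg hxS) (S.inv_mem hg)⟩ = θ ⟨g, hg⟩ * θ ⟨x, hxS⟩ * (θ ⟨g, hg⟩)⁻¹ := by
      rw [← map_inv, ← map_mul, ← map_mul]
      rfl
    rw [h1]
    have h2 := funW_normalized hW2 hEp (Subgroup.le_normalizer (Subgroup.mem_top (θ ⟨g, hg⟩)))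
    exact (Subgroup.mem_normalizer_iff.1 h2 _).1 hx'
  have hfn := isFullyNormalized_of_normalizerIn (F := F) hVS hNV
  have hlt : Nat.card Q < Nat.card ↥(preimageAlong θ (funW W (⊤ : Subgroup (↥S ⧸ Q.subgroupOf S)))) := by
    by_contra hle
    push Not at hle
    have heq := eq_of_le_of_card_le hVS hQV hle
    apply hVne
    rw [eq_bot_iff]
    intro v hv
    obtain ⟨s, rfl⟩ := hθsurj v
    have h1 : (s : Ω) ∈ preimageAlong θ (funW W (⊤ : Subgroup (↥S ⧸ Q.subgroupOf S))) := mem_preimageAlong.2 ⟨s.2, hv⟩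
    have h2 : (s : Ω) ∈ Q := heq.ge h1
    exact Subgroup.mem_bot.2 ((hker s).2 h2)
  obtain ⟨D, hD⟩ := Cfsg.Agent.S5096.result F _ hVS
  have hfoc := focal_normalizer_le hN hNV (fun D hD Dn hDn => hIH hfn hlt D hD Dn hDn) D hD
  obtain ⟨t, ht, htq⟩ := exists_focal_mul hS hF hQs hE hN' hEfoc hD hNV hy
  exact ⟨t, hfoc ht, htq⟩

end

/-- The measure decreases on the normalizer systems of large subgroups. -/
theorem measure_normalizer {Ω : Type u} [Group Ω] {S : Subgroup Ω} [Finite S] {F : FusionSystem S}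
    (hS : IsPGroup p S) (hF : F.IsSaturated p) {n : ℕ} (hn : 2 * Nat.card S - Nat.card F.core ≤ n)
    {U₀ : Subgroup Ω} (hfn : F.IsFullyNormalized U₀) (hlt : Nat.card F.core < Nat.card U₀)
    {D : FusionSystem (normalizerIn S U₀)} (hD : F.IsNormalizerSystem U₀ D) :
    2 * Nat.card (normalizerIn S U₀) - Nat.card D.core < n := by
  have hcoreS : F.core ≤ S := (isNormal_core (F := F)).1
  have hc3 : Nat.card F.core ≤ Nat.card S := card_le_of_le le_rfl hcoreS
  have hSpos : 0 < Nat.card S := Nat.card_pos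
  have : Finite (normalizerIn S U₀) := finite_of_le (normalizerIn_le U₀)
  have hU₀core : U₀ ≤ D.core := le_sSup (isNormal_normalizerSystem hfn.1 hD)
  have hcorele : D.core ≤ normalizerIn S U₀ := (isNormal_core (F := D)).1
  have hc1 : Nat.card U₀ ≤ Nat.card D.core := card_le_of_le hcorele hU₀core
  have hc2 : Nat.card (normalizerIn S U₀) ≤ Nat.card S := card_le_of_le le_rfl (normalizerIn_le _)
  omega

/-- The measure decreases on the factor system by a nontrivial normal subgroup. -/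
theorem measure_factor {Ω : Type u} [Group Ω] {S : Subgroup Ω} [Finite S] {F : FusionSystem S}
    {n : ℕ} (hn : 2 * Nat.card S - Nat.card F.core ≤ n) (hOne : F.core ≠ ⊥) [hQq : (F.core.subgroupOf S).Normal]
    {E : FusionSystem (⊤ : Subgroup (↥S ⧸ F.core.subgroupOf S))}
    (hE : F.IsFactorSystem F.core (QuotientGroup.mk' (F.core.subgroupOf S)) E) :
    2 * Nat.card (⊤ : Subgroup (↥S ⧸ F.core.subgroupOf S)) - Nat.card E.core < n := by
  have hcoreS : F.core ≤ S := (isNormal_core (F := F)).1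
  have hfin := IsFactorSystem.finite hE
  have hpos : 0 < Nat.card E.core := by
    have : Finite E.core := finite_of_le (isNormal_core (F := E)).1
    exact Nat.card_pos
  have hc1 : Nat.card (⊤ : Subgroup (↥S ⧸ F.core.subgroupOf S)) = Nat.card (↥S ⧸ F.core.subgroupOf S) := Subgroup.card_top
  have hc2 : Nat.card (F.core.subgroupOf S) = Nat.card F.core :=
    Nat.card_congr (Subgroup.subgroupOfEquivOfLe hcoreS).toEquiv
  have hc3 : Nat.card (F.core.subgroupOf S) * Nat.card (↥S ⧸ F.core.subgroupOf S) = Nat.card S := by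
    rw [mul_comm]
    exact (Subgroup.card_eq_card_quotient_mul_card_subgroup _).symm
  have hc4 : 2 ≤ Nat.card F.core := by
    have : Finite F.core := finite_of_le hcoreS
    have : Nontrivial F.core := (Subgroup.nontrivial_iff_ne_bot _).2 hOne
    exact Finite.one_lt_card
  have hc5 : 2 * Nat.card (↥S ⧸ F.core.subgroupOf S) ≤ Nat.card S := by
    rw [← hc3, hc2]
    exact Nat.mul_le_mul_right _ hc4
  have hc6 : Nat.card F.core ≤ Nat.card S := card_le_of_le le_rfl hcoreS
  omega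

/-- **Control of transfer.** -/
theorem focal_main
    (hW1 : ∀ (Q : Type u) [Group Q] [Finite Q], IsPGroup p Q → Nontrivial Q → W Q ≠ ⊥)
    (hW2 : ∀ (Q R : Type u) [Group Q] [Group R] [Finite Q], IsPGroup p Q → ∀ φ : Q ≃* R, (W Q).map φ.toMonoidHom = W R)
    (hT : LocalTransfer p W) :
    ∀ (n : ℕ) {Ω : Type u} [Group Ω] {S : Subgroup Ω} [Finite S] {F : FusionSystem S},
      IsPGroup p S → F.IsSaturated p → 2 * Nat.card S - Nat.card F.core ≤ n →
      ∀ N : FusionSystem (normalizerIn S (funW W S)), F.IsNormalizerSystem (funW W S) N →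
        F.focalSubgroup ≤ N.focalSubgroup := by
  intro n
  induction n using Nat.strong_induction_on with
  | _ n ih =>
  intro Ω _ S _ F hS hF hn N hN
  -- the general induction step
  have hIHgen : LargeIH F W (Nat.card F.core) := by
    intro U₀ hfn hlt D hD Dn hDn
    have hTp : IsPGroup p (normalizerIn S U₀) := hS.to_le (normalizerIn_le U₀)
    have : Finite (normalizerIn S U₀) := finite_of_le (normalizerIn_le U₀)
    have hDs := isSaturated_normalizerSystem hS hF hfn hD
    exact ih _ (measure_normalizer hS hF hn hfn hlt hD) hTp hDs le_rfl Dn hDn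
  by_cases hOne : F.core = ⊥
  · have hcard1 : Nat.card F.core = 1 := by
      rw [hOne]
      exact Subgroup.card_bot
    refine focal_le_of_normalizer_IH hS hF hN hW1 hW2 (fun {U₀} hfn hne D hD Dn hDn => hIHgen hfn ?_ D hD Dn hDn)
    have : Finite U₀ := finite_of_le hfn.1
    have : Nontrivial U₀ := (Subgroup.nontrivial_iff_ne_bot _).2 hne
    rw [hcard1]
    exact Finite.one_lt_card
  -- a nontrivial core
  have hcoreN : F.IsNormal F.core := isNormal_core
  have hONS : S ≤ Subgroup.normalizer (F.core : Set Ω) := StronglyClosed.le_normalizer (IsNormal.stronglyClosed hcoreN)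
  have hb : F.core ⊓ F.focalSubgroup ≤ N.focalSubgroup := core_inf_focal_le hW2 hT hS hF hN hcoreN hIHgen
  haveI hOsn : (F.core.subgroupOf S).Normal := ⟨fun c hc g => Subgroup.mem_subgroupOf.2 (by
    simpa using Fusion.conj_mem_of_mem_normalizer (hONS g.2) (Subgroup.mem_subgroupOf.1 hc))⟩
  have hNF : ∀ P, N.Hom P ⊆ F.Hom P := fun P φ hφ => by
    rw [hN P] at hφ
    exact hφ.1
  intro y hy
  obtain ⟨t, ht, htq⟩ := exists_focal_mul_core hW1 hW2 hS hF hN hcoreN hIHgen (fun E hE N' hN' => by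
    have hEp := IsFactorSystem.isPGroup hS hE
    have hEfin := IsFactorSystem.finite hE
    have hEs := isSaturated_of_factor hS hF (IsNormal.stronglyClosed hcoreN) hE
    exact ih _ (measure_factor hn hOne hE) hEp hEs le_rfl N' hN') hy
  have hc : t⁻¹ * y ∈ F.core ⊓ F.focalSubgroup :=
    ⟨htq, Subgroup.mul_mem _ (Subgroup.inv_mem _ (focal_mono hNF ht)) hy⟩
  have e : y = t * (t⁻¹ * y) := by group
  rw [e]
  exact Subgroup.mul_mem _ ht (hb hc)

/-- `foc(N_F(W(S))) = foc(F)`. -/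
theorem focal_eq_of_functor
    (hW1 : ∀ (Q : Type u) [Group Q] [Finite Q], IsPGroup p Q → Nontrivial Q → W Q ≠ ⊥)
    (hW2 : ∀ (Q R : Type u) [Group Q] [Group R] [Finite Q], IsPGroup p Q → ∀ φ : Q ≃* R, (W Q).map φ.toMonoidHom = W R)
    (hT : LocalTransfer p W) {Ω : Type u} [Group Ω] {S : Subgroup Ω} [Finite S] (hS : IsPGroup p S)
    (F : FusionSystem S) (hF : F.IsSaturated p) (N : FusionSystem (normalizerIn S (funW W S)))
    (hN : F.IsNormalizerSystem (funW W S) N) : N.focalSubgroup = F.focalSubgroup := by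
  refine le_antisymm (focal_mono fun P φ hφ => ?_) (focal_main hW1 hW2 hT _ hS hF le_rfl N hN)
  rw [hN P] at hφ
  exact hφ.1

end Cfsg.Agent.Lib.FocalW
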