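import Cfsg.Agent.Lib.FocalW.Main
import Cfsg.Agent.Lib.Techniques.KFour
import Cfsg.Agent.Lib.Techniques.MinFailInd
import Cfsg.Agent.S1991
import Cfsg.Agent.S1978
import Mathlib

/-! # `p ≥ 5`: a saturated fusion system with `Aut_F(S)` a `p`-group has a proper focal subgroup -/

set_option autoImplicit false

namespace Cfsg.Agent.Lib.FocalW

open Cfsg Cfsg.FusionSystem Cfsg.Agent.Lib.Fusion Cfsg.Agent.Lib.Fusion.Biset Cfsg.Agent.Lib.Techniques
open scoped commutatorElement

universe u

variable {p : ℕ} [hp : Fact p.Prime]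

/-- `K_∞` satisfies the local condition. -/
theorem localTransfer_kInf (hp5 : 5 ≤ p) : LocalTransfer.{u} p kInfLower.{u} := by
  intro G _ _ P _
  have hc := (kInf_controls_transfer (G := G) (p := p) hp5).1
  have hc' : FamilyControlsTransferIn p ((fun W => inducedFunctor (G := G) W) '' ({kInfLower.{u}} : Set (∀ (Q : Type u) [Group Q], Subgroup Q))) ⊤ :=
    familyControls_singleton_iff.2 hc
  have h𝓦 : ∀ W' ∈ ({kInfLower.{u}} : Set (∀ (Q : Type u) [Group Q], Subgroup Q)), IsCharPFunctor.{u} p W' := by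
    intro W' hW'
    rw [Set.mem_singleton_iff.1 hW']
    exact isCharPFunctor_kInfLower
  have h := famTransfer_at' h𝓦 hc' (sylowIn_top_of_sylow P)
  simp only [iSup_singleton, top_inf_eq] at h
  have hle : pCore p G ≤ (P : Subgroup G) := Lib.Core.pCore_le_sylow P
  have e1 : commutator G = ⁅(⊤ : Subgroup G), ⊤⁆ := rfl
  rw [Subgroup.map_subtype_commutator, e1]
  have h2 : pCore p G ⊓ ((P : Subgroup G) ⊓ ⁅(⊤ : Subgroup G), ⊤⁆) = pCore p G ⊓ ((P : Subgroup G) ⊓
      ⁅Subgroup.normalizer ((funW kInfLower (P : Subgroup G) : Subgroup G) : Set G),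
        Subgroup.normalizer ((funW kInfLower (P : Subgroup G) : Subgroup G) : Set G)⁆) := congrArg (pCore p G ⊓ ·) h
  rw [← inf_assoc, ← inf_assoc, inf_eq_left.2 hle] at h2
  exact h2

variable {Ω : Type u} [Group Ω] {S : Subgroup Ω} [Finite S]

/-- The constrained case, from the group theorem. -/
theorem focal_lt_of_constrained {N : FusionSystem S} (hS : IsPGroup p S) (hNs : N.IsSaturated p) (hp5 : 5 ≤ p) (hne : S ≠ ⊥)
    {K : Subgroup Ω} (hKn : N.IsNormal K) (hKc : centralizerIn S K ≤ K) (haut : IsPGroup p (N.autGroup S)) :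
    N.focalSubgroup < S := by
  classical
  obtain ⟨-, hrec⟩ := IsNormal.fullyAutomized_receptive hNs hKn
  have hKcen := isCentric_of_receptive hrec hKc
  obtain ⟨L, _, ι, hm⟩ := exists_model hS hNs hKn hKcen
  have hfin : Finite L := hm.1
  have hreal := hm.2.1
  have hinj := hreal.1
  obtain ⟨P, hP⟩ := hm.2.2.1
  have hPne : (P : Subgroup L) ≠ ⊥ := by
    intro hb
    apply hne
    rw [eq_bot_iff]
    intro s hs
    have h1 : ι ⟨s, hs⟩ ∈ (P : Subgroup L) := by
      rw [hP]
      exact ⟨_, rfl⟩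
    rw [hb, Subgroup.mem_bot] at h1
    have h2 : (⟨s, hs⟩ : S) = 1 := hinj (h1.trans (map_one ι).symm)
    exact Subgroup.mem_bot.2 (congrArg Subtype.val h2)
  have hcent : ∀ g ∈ Subgroup.normalizer (((P : Subgroup L) : Subgroup L) : Set L), (orderOf g).Coprime p →
      g ∈ Subgroup.centralizer (((P : Subgroup L) : Subgroup L) : Set L) := by
    intro g hg hco
    let f : S →* L := (MulAut.conj g).toMonoidHom.comp ι
    have hf : ∀ t : S, f t ∈ ι.range := by
      intro t
      have h1 : ι t ∈ (P : Subgroup L) := by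
        rw [hP]
        exact ⟨_, rfl⟩
      have h2 := (Subgroup.mem_normalizer_iff.1 hg _).1 h1
      rw [hP] at h2
      exact h2
    let e : S ≃* ι.range := MonoidHom.ofInjective hinj
    let φ : S →* Ω := S.subtype.comp (e.symm.toMonoidHom.comp (f.codRestrict ι.range hf))
    have hφS : ∀ t : S, φ t ∈ S := fun t => (e.symm _).2
    have hφι : ∀ t : S, ι ⟨φ t, hφS t⟩ = g * ι t * g⁻¹ := by
      intro t
      have h1 : (⟨φ t, hφS t⟩ : S) = e.symm ⟨f t, hf t⟩ := rfl
      rw [h1]
      have h2 : ι (e.symm ⟨f t, hf t⟩) = ((e (e.symm ⟨f t, hf t⟩) : ι.range) : L) := rfl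
      rw [h2, MulEquiv.apply_symm_apply]
      rfl
    have hφN : φ ∈ N.Hom S := (hreal.2 S le_rfl φ hφS).2 ⟨g, hφι⟩
    have hbij : Function.Bijective (φ.codRestrict S hφS) := by
      have hi : Function.Injective (φ.codRestrict S hφS) := fun a b hab =>
        hom_inj N hφN (congrArg Subtype.val hab)
      exact ⟨hi, Finite.injective_iff_surjective.1 hi⟩
    let α : MulAut S := MulEquiv.ofBijective (φ.codRestrict S hφS) hbij
    have hαv : ∀ t : S, ι (α t) = g * ι t * g⁻¹ := hφι
    have hαN : S.subtype.comp α.toMonoidHom ∈ N.Hom S := hom_congr N hφN fun x => rfl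
    have hαA : α ∈ N.autGroup S := (mem_autGroup_iff le_rfl).2 hαN
    have hαpow : ∀ (k : ℕ) (t : S), ι ((α ^ k) t) = g ^ k * ι t * (g ^ k)⁻¹ := by
      intro k
      induction k with
      | zero => intro t; simp
      | succ k ih =>
        intro t
        rw [pow_succ, MulAut.mul_apply, ih, hαv, pow_succ]
        group
    have hαn : α ^ orderOf g = 1 := by
      ext t
      have h1 := hαpow (orderOf g) t
      rw [pow_orderOf_eq_one] at h1
      have h2 : ((α ^ orderOf g) t) = t := hinj (by simpa using h1)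
      rw [h2]
      rfl
    have hd1 : orderOf α ∣ orderOf g := orderOf_dvd_of_pow_eq_one hαn
    obtain ⟨j, hj⟩ := haut ⟨α, hαA⟩
    have hj' : α ^ p ^ j = 1 := congrArg Subtype.val hj
    have hd2 : orderOf α ∣ p ^ j := orderOf_dvd_of_pow_eq_one hj'
    have hα1 : orderOf α = 1 := Nat.eq_one_of_dvd_coprimes (Nat.Coprime.pow_right j hco) hd1 hd2
    have hα2 : α = 1 := orderOf_eq_one_iff.1 hα1
    rw [Subgroup.mem_centralizer_iff]
    intro x hx
    have hx' : x ∈ ι.range := by
      rw [← hP]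
      exact hx
    obtain ⟨t, rfl⟩ := hx'
    have h1 := hαv t
    rw [hα2] at h1
    have h2 : ι t = g * ι t * g⁻¹ := h1
    calc ι t * g = (g * ι t * g⁻¹) * g := by rw [← h2]
      _ = g * ι t := by group
  obtain ⟨M, hMn, hMi⟩ := Cfsg.Agent.S1991.result hp5 P hPne hcent
  refine lt_of_le_of_ne focal_le fun heq => ?_
  have hMp : Nat.card (L ⧸ M) = p := by
    rw [← Subgroup.index_eq_card]
    exact hMi
  haveI : Fact (Nat.card (L ⧸ M)).Prime := ⟨by rw [hMp]; exact hp.out⟩
  have hcyc : IsCyclic (L ⧸ M) := isCyclic_of_prime_card rfl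
  have hcm : commutator L ≤ M := by
    rw [commutator_eq_closure, Subgroup.closure_le]
    rintro _ ⟨a, b, rfl⟩
    have hcomm : (QuotientGroup.mk a : L ⧸ M) * QuotientGroup.mk b = QuotientGroup.mk b * QuotientGroup.mk a := by
      letI := hcyc.commGroup
      exact mul_comm _ _
    have h1 : (QuotientGroup.mk ⁅a, b⁆ : L ⧸ M) = 1 := by
      simp only [commutatorElement_def, QuotientGroup.mk_mul, QuotientGroup.mk_inv]
      rw [hcomm]
      group
    exact (QuotientGroup.eq_one_iff _).1 h1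
  have hPM : (P : Subgroup L) ≤ M := by
    rw [hP]
    rintro _ ⟨s, rfl⟩
    have hs : (s : Ω) ∈ N.focalSubgroup := by
      rw [heq]
      exact s.2
    exact hcm (focal_map_commutator hreal hs s.2)
  have h3 := Subgroup.index_dvd_of_le hPM
  rw [hMi] at h3
  exact P.not_dvd_index h3

/-- Transport along an equality of the groups. -/
theorem focal_lt_cast {T : Subgroup Ω} (hTS : T = S) (hS : IsPGroup p S) (hne : S ≠ ⊥) {N : FusionSystem T}
    (hNs : N.IsSaturated p) (hp5 : 5 ≤ p) {K : Subgroup Ω} (hKn : N.IsNormal K) (hKc : centralizerIn T K ≤ K)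
    {F : FusionSystem S} (hNF : ∀ P, N.Hom P ⊆ F.Hom P) (haut : IsPGroup p (F.autGroup S)) : N.focalSubgroup < S := by
  subst hTS
  have hle : N.autGroup T ≤ F.autGroup T := Subgroup.closure_mono fun α h => hNF _ h
  exact focal_lt_of_constrained hS hNs hp5 hne hKn hKc (haut.to_le hle)

/-- **`S5252`.** -/
theorem focal_lt_of_autGroup_isPGroup (hS : IsPGroup p S) (F : FusionSystem S) (hF : F.IsSaturated p) (hp5 : 5 ≤ p)
    (hne : S ≠ ⊥) (haut : IsPGroup p (F.autGroup S)) : F.focalSubgroup < S := by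
  have hc := isCharPFunctor_kInfLower.{u} (p := p)
  obtain ⟨N, hN⟩ := Cfsg.Agent.S5096.result F (funW kInfLower S) (funW_le _ _)
  have heq := focal_eq_of_functor hc.1 hc.2 (localTransfer_kInf hp5) hS F hF N hN
  rw [← heq]
  have hNS : normalizerIn S (funW kInfLower S) = S := normalizerIn_funW hS hc.2
  have hfn := isFullyNormalized_of_normalizerIn (F := F) (funW_le kInfLower S) hNS
  have hNs := isSaturated_normalizerSystem hS hF hfn hN
  have hKn := isNormal_normalizerSystem (funW_le kInfLower S) hN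
  refine focal_lt_cast hNS hS hne hNs hp5 hKn ?_ (fun P φ hφ => ?_) haut
  · intro g hg
    have hg' := mem_centralizerIn.1 hg
    have hgS : g ∈ S := normalizerIn_le _ hg'.1
    have h1 : (⟨g, hgS⟩ : S) ∈ Subgroup.centralizer (kInfLower ↥S : Set ↥S) := by
      rw [Subgroup.mem_centralizer_iff]
      intro y hy
      apply Subtype.ext
      exact hg'.2 _ ⟨y, hy, rfl⟩
    exact ⟨_, (Cfsg.Agent.S1978.result (P := ↥S) hS).1 h1, rfl⟩
  · rw [hN P] at hφ
    exact hφ.1

end Cfsg.Agent.Lib.FocalW
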